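import Cfsg.Agent.H125.Hall.CoreRow
import Cfsg.Agent.H408.Hall.MTwo

/-!
# S2223, N2: the diagonal case of `CoreRow` (helper421)

`coreRow_sl_one` : `SL_n(q)`, `q ≡ 1 (mod 4)`; `coreRow_su_three` : `SU_n(q)`, `q ≡ 3 (mod 4)`; `n ≥ 3`, `n ≠ 4`.
-/

set_option autoImplicit false
set_option linter.unusedSectionVars false

namespace Cfsg.Agent.H421.Hall

open Cfsg Polynomial Matrix Cfsg.Agent.H125.Hall Cfsg.Agent.H408.Hall.MTwo

section

variable {F : Type} [Field F] {n : ℕ} {G : Type*} [Group G] (φ : G →* Matrix.SpecialLinearGroup (Fin n) F)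

/-- the diagonal matrices with entries of order dividing four -/
def dT : Subgroup G where
  carrier := {g | ∃ d : Fin n → F, (φ g : Matrix (Fin n) (Fin n) F) = diagonal d ∧ ∀ k, d k ^ 4 = 1}
  one_mem' := ⟨fun _ => 1, by rw [map_one, Matrix.SpecialLinearGroup.coe_one]; exact (Matrix.diagonal_one).symm,
    fun _ => one_pow _⟩
  mul_mem' := by
    rintro a b ⟨d, hd, h4⟩ ⟨e, he, h4'⟩
    refine ⟨fun k => d k * e k, ?_, fun k => by rw [mul_pow, h4, h4', one_mul]⟩
    rw [map_mul, Matrix.SpecialLinearGroup.coe_mul, hd, he, Matrix.diagonal_mul_diagonal]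
  inv_mem' := by
    rintro a ⟨d, hd, h4⟩
    have hne : ∀ k, d k ≠ 0 := by
      intro k h
      have := h4 k
      rw [h, zero_pow (by norm_num)] at this
      exact zero_ne_one this
    refine ⟨fun k => (d k)⁻¹, ?_, fun k => by rw [inv_pow, h4, inv_one]⟩
    have h1 : (φ a⁻¹ : Matrix (Fin n) (Fin n) F) * (φ a : Matrix (Fin n) (Fin n) F) = 1 := by
      rw [← Matrix.SpecialLinearGroup.coe_mul, ← map_mul, inv_mul_cancel, map_one, Matrix.SpecialLinearGroup.coe_one]
    have h2 : (diagonal d : Matrix (Fin n) (Fin n) F) * diagonal (fun k => (d k)⁻¹) = 1 := by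
      rw [Matrix.diagonal_mul_diagonal]
      have : (fun k => d k * (d k)⁻¹) = fun _ => (1 : F) := funext fun k => mul_inv_cancel₀ (hne k)
      rw [this]
      exact Matrix.diagonal_one
    rw [hd] at h1
    calc (φ a⁻¹ : Matrix (Fin n) (Fin n) F)
        = (φ a⁻¹ : Matrix (Fin n) (Fin n) F) * (diagonal d * diagonal (fun k => (d k)⁻¹)) := by rw [h2, mul_one]
      _ = diagonal (fun k => (d k)⁻¹) := by rw [← mul_assoc, h1, one_mul]

theorem isPGroup_dT (hφ : Function.Injective φ) : IsPGroup 2 (dT φ) := by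
  rintro ⟨g, d, hd, h4⟩
  refine ⟨2, Subtype.ext (hφ (Subtype.ext ?_))⟩
  show ((φ (g ^ (2 ^ 2)) : Matrix.SpecialLinearGroup (Fin n) F) : Matrix (Fin n) (Fin n) F) = ((φ 1 : _) : Matrix _ _ _)
  rw [map_pow, Matrix.SpecialLinearGroup.coe_pow, hd, Matrix.diagonal_pow, map_one, Matrix.SpecialLinearGroup.coe_one]
  have : (d ^ (2 ^ 2) : Fin n → F) = fun _ => 1 := funext fun k => by
    show d k ^ (2 ^ 2) = 1
    exact h4 k
  rw [this]
  exact Matrix.diagonal_one

/-- the natural representation of a subgroup -/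
noncomputable def nat (H : Subgroup G) : Representation F H (Fin n → F) where
  toFun x := Matrix.toLin' (φ x : Matrix (Fin n) (Fin n) F)
  map_one' := by
    show Matrix.toLin' (φ ((1 : H) : G) : Matrix (Fin n) (Fin n) F) = 1
    rw [Subgroup.coe_one, map_one, Matrix.SpecialLinearGroup.coe_one, Matrix.toLin'_one]
    rfl
  map_mul' x y := by
    show Matrix.toLin' (φ ((x * y : H) : G) : Matrix (Fin n) (Fin n) F) = _
    rw [Subgroup.coe_mul, map_mul, Matrix.SpecialLinearGroup.coe_mul, Matrix.toLin'_mul]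
    rfl

theorem nat_faithful (hφ : Function.Injective φ) (H : Subgroup G) (x : H) (hx : nat φ H x = 1) : x = 1 := by
  have h1 : Matrix.toLin' (φ x : Matrix (Fin n) (Fin n) F) = Matrix.toLin' 1 := by
    rw [Matrix.toLin'_one]; exact hx
  have h2 := Matrix.toLin'.injective h1
  refine Subtype.ext (hφ (Subtype.ext ?_))
  rw [h2, Subgroup.coe_one, map_one, Matrix.SpecialLinearGroup.coe_one]

variable {φ}

/-- squares of diagonal elements with two eigenvalues lie in the 2-core -/
theorem sq_mem {p : ℕ} [Fact p.Prime] [CharP F p] [Finite F] (hφ : Function.Injective φ) {H : Subgroup G}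
    (hTH : dT φ ≤ H) (hpH : ¬ p ∣ Nat.card H) {g : G} {d : Fin n → F}
    (hg : (φ g : Matrix (Fin n) (Fin n) F) = diagonal d) (h4 : ∀ k, d k ^ 4 = 1) {e₁ e₂ : F}
    (he : ∀ k, d k = e₁ ∨ d k = e₂) : ∃ h : g ^ 2 ∈ H, (⟨g ^ 2, h⟩ : H) ∈ Cfsg.pCore 2 H := by
  have hfin : Finite G := Finite.of_injective φ hφ
  have hgT : g ∈ dT φ := ⟨d, hg, h4⟩
  have hgH := hTH hgT
  refine ⟨H.pow_mem hgH 2, ?_⟩
  have h1 := mem_pCore_of_aeval (p := p) (G := H) hpH (nat φ H) (nat_faithful φ hφ H) (y := ⟨g, hgH⟩)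
    (g := (X - C e₁) * (X - C e₂)) (j := 1) (by
      obtain ⟨i, hi⟩ := isPGroup_dT φ hφ ⟨g, hgT⟩
      exact ⟨i, Subtype.ext (by simpa using congrArg Subtype.val hi)⟩)
    (mul_ne_zero (X_sub_C_ne_zero _) (X_sub_C_ne_zero _)) (by
      refine le_trans natDegree_mul_le ?_
      rw [natDegree_X_sub_C, natDegree_X_sub_C]; norm_num) (by
      rw [map_mul, map_sub, map_sub, aeval_X, aeval_C, aeval_C]
      refine LinearMap.ext fun v => funext fun k => ?_
      have hv : ∀ w : Fin n → F, (nat φ H ⟨g, hgH⟩ w) = fun k => d k * w k := by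
        intro w
        show Matrix.toLin' (φ g : Matrix (Fin n) (Fin n) F) w = _
        rw [hg, Matrix.toLin'_apply]
        funext k
        rw [Matrix.mulVec_diagonal]
      show (nat φ H ⟨g, hgH⟩ (nat φ H ⟨g, hgH⟩ v - e₂ • v) - e₁ • (nat φ H ⟨g, hgH⟩ v - e₂ • v)) k = 0
      rw [hv, hv]
      show d k * (d k * v k - e₂ * v k) - e₁ * (d k * v k - e₂ * v k) = 0
      rcases he k with h | h
      · rw [h]; ring
      · rw [h]; ring)
  exact h1

variable (φ)

theorem coreRow_diag {p : ℕ} [Fact p.Prime] [CharP F p] [Finite F] (hφ : Function.Injective φ) (hch : (2 : F) ≠ 0)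
    {i : F} (hi : i ^ 2 = -1) (hn : 3 ≤ n) (hn4 : n ≠ 4)
    (hd : ∀ d : Fin n → F, (∀ k, d k ^ 4 = 1) → ∏ k, d k = 1 →
      ∃ g : G, (φ g : Matrix (Fin n) (Fin n) F) = diagonal d) : CoreRow p G := by
  classical
  have hi4 : i ^ 4 = 1 := by
    rw [show (4 : ℕ) = 2 * 2 from rfl, pow_mul, hi]; norm_num
  refine ⟨dT φ, isPGroup_dT φ hφ, ?_⟩
  intro H hTH hpH g hgT c hc
  -- the sign changes at two coordinates
  set sg : Fin n → Fin n → Fin n → F := fun a b k => if k = a ∨ k = b then -1 else 1 with hsg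
  have hmul : ∀ (x y : G) (dx dy : Fin n → F), (φ x : Matrix (Fin n) (Fin n) F) = diagonal dx →
      (φ y : Matrix (Fin n) (Fin n) F) = diagonal dy →
      (φ (x * y) : Matrix (Fin n) (Fin n) F) = diagonal (fun k => dx k * dy k) := by
    intro x y dx dy hx hy
    rw [map_mul, Matrix.SpecialLinearGroup.coe_mul, hx, hy, Matrix.diagonal_mul_diagonal]
  have key : ∀ a b : Fin n, a ≠ b → ∃ x : G, ∃ h : x ∈ H, (⟨x, h⟩ : H) ∈ Cfsg.pCore 2 H ∧
      (φ x : Matrix (Fin n) (Fin n) F) = diagonal (sg a b) := by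
    intro a b hab
    have hsq : ∀ (d : Fin n → F) (e₁ e₂ : F), (∀ k, d k ^ 4 = 1) → ∏ k, d k = 1 → (∀ k, d k = e₁ ∨ d k = e₂) →
        ∃ x : G, ∃ h : x ∈ H, (⟨x, h⟩ : H) ∈ Cfsg.pCore 2 H ∧
          (φ x : Matrix (Fin n) (Fin n) F) = diagonal (fun k => d k * d k) := by
      intro d e₁ e₂ h4 hprod he
      obtain ⟨g, hg⟩ := hd d h4 hprod
      obtain ⟨h, h'⟩ := sq_mem (p := p) hφ hTH hpH hg h4 he
      exact ⟨g ^ 2, h, h', by rw [pow_two]; exact hmul g g d d hg hg⟩
    rcases eq_or_lt_of_le hn with hn3 | hn3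
    · -- `n = 3`
      subst hn3
      obtain ⟨x, h, h', hx⟩ := hsq (fun k => if k = a ∨ k = b then i else -1) i (-1) (by
          intro k
          split_ifs
          · exact hi4
          · norm_num) (by
          rw [Fin.prod_univ_three]
          fin_cases a <;> fin_cases b <;> first | exact absurd rfl hab | (simp <;> linear_combination -hi)) (by
          intro k
          split_ifs
          · exact Or.inl rfl
          · exact Or.inr rfl)
      refine ⟨x, h, h', ?_⟩
      rw [hx]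
      congr 1
      funext k
      simp only [hsg]
      split_ifs
      · rw [← pow_two, hi]
      · norm_num
    · -- `n ≥ 5`
      have hn5 : 5 ≤ n := by omega
      obtain ⟨A, hA, hA3⟩ : ∃ A : Finset (Fin n), A ⊆ (Finset.univ.erase a).erase b ∧ A.card = 3 := by
        refine Finset.exists_subset_card_eq ?_
        rw [Finset.card_erase_of_mem, Finset.card_erase_of_mem (Finset.mem_univ _), Finset.card_univ, Fintype.card_fin]
        · omega
        · exact Finset.mem_erase.2 ⟨hab.symm, Finset.mem_univ _⟩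
      have haA : a ∉ A := fun h => (Finset.mem_erase.1 (Finset.mem_erase.1 (hA h)).2).1 rfl
      have hbA : b ∉ A := fun h => (Finset.mem_erase.1 (hA h)).1 rfl
      have hJ : ∀ c : Fin n, c ∉ A → ∃ x : G, ∃ h : x ∈ H, (⟨x, h⟩ : H) ∈ Cfsg.pCore 2 H ∧
          (φ x : Matrix (Fin n) (Fin n) F) = diagonal (fun k => if k ∈ insert c A then -1 else 1) := by
        intro c hcA
        obtain ⟨x, h, h', hx⟩ := hsq (fun k => if k ∈ insert c A then i else 1) i 1 (by
            intro k
            split_ifs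
            · exact hi4
            · norm_num) (by
            rw [Finset.prod_ite, Finset.prod_const_one, mul_one, Finset.prod_const, Finset.filter_mem_eq_inter,
              Finset.univ_inter, Finset.card_insert_of_notMem hcA, hA3]
            exact hi4) (by
            intro k
            split_ifs
            · exact Or.inl rfl
            · exact Or.inr rfl)
        refine ⟨x, h, h', ?_⟩
        rw [hx]
        congr 1
        funext k
        split_ifs
        · rw [← pow_two, hi]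
        · norm_num
      obtain ⟨x, hxH, hx, hxd⟩ := hJ a haA
      obtain ⟨y, hyH, hy, hyd⟩ := hJ b hbA
      refine ⟨x * y, H.mul_mem hxH hyH, (Cfsg.pCore 2 H).mul_mem hx hy, ?_⟩
      rw [hmul x y _ _ hxd hyd]
      congr 1
      funext k
      simp only [hsg]
      simp only [Finset.mem_insert]
      by_cases hka : k = a
      · have hkb : k ≠ b := fun h => hab (hka.symm.trans h)
        have hkA : k ∉ A := by rw [hka]; exact haA
        simp [hka, hkb, hkA, hab, haA]
      · by_cases hkb : k = b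
        · have hkA : k ∉ A := by rw [hkb]; exact hbA
          simp [hkb, hbA, hab.symm]
        · by_cases hkA : k ∈ A
          · simp [hka, hkb, hkA]
          · simp [hka, hkb, hkA]
  -- everything commuting with the sign changes is diagonal
  have hdiag : ∀ z : G, (∀ a b : Fin n, a ≠ b → ∀ x : G, (φ x : Matrix (Fin n) (Fin n) F) = diagonal (sg a b) →
      z * x = x * z) → (∀ a b : Fin n, a ≠ b → ∃ x : G, (φ x : Matrix (Fin n) (Fin n) F) = diagonal (sg a b)) →
      ∀ k l : Fin n, k ≠ l → (φ z : Matrix (Fin n) (Fin n) F) k l = 0 := by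
    intro z hz hex k l hkl
    -- a third coordinate
    obtain ⟨m, hmk, hml⟩ : ∃ m : Fin n, m ≠ k ∧ m ≠ l := by
      obtain ⟨m, hm⟩ : ∃ m, m ∉ ({k, l} : Finset (Fin n)) := by
        by_contra hcon
        push Not at hcon
        have h1 : (Finset.univ : Finset (Fin n)) ⊆ {k, l} := fun m _ => hcon m
        have h2 := Finset.card_le_card h1
        rw [Finset.card_univ, Fintype.card_fin] at h2
        have h3 := Finset.card_le_two (a := k) (b := l)
        omega
      rw [Finset.mem_insert, Finset.mem_singleton, not_or] at hm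
      exact ⟨m, hm⟩
    obtain ⟨x, hx⟩ := hex k m (Ne.symm hmk)
    have h1 := hz k m (Ne.symm hmk) x hx
    have h2 := congrArg (fun g : G => (φ g : Matrix (Fin n) (Fin n) F) k l) h1
    simp only [map_mul, Matrix.SpecialLinearGroup.coe_mul, hx, Matrix.mul_diagonal, Matrix.diagonal_mul] at h2
    have h3 : sg k m l = 1 := by
      simp only [hsg]; rw [if_neg]; rintro (h | h)
      · exact hkl h.symm
      · exact hml h.symm
    have h4 : sg k m k = -1 := by simp [hsg]
    rw [h3, h4, mul_one, neg_one_mul] at h2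
    have h5 : (2 : F) * (φ z : Matrix (Fin n) (Fin n) F) k l = 0 := by linear_combination h2
    exact (mul_eq_zero.1 h5).resolve_left hch
  have hex : ∀ a b : Fin n, a ≠ b → ∃ x : G, (φ x : Matrix (Fin n) (Fin n) F) = diagonal (sg a b) := by
    intro a b hab
    obtain ⟨x, -, -, hx⟩ := key a b hab
    exact ⟨x, hx⟩
  have hgd := hdiag g (fun a b hab x hx => hgT x ⟨sg a b, hx, fun k => by
    simp only [hsg]; split_ifs <;> norm_num⟩) hex
  have hcd := hdiag c (fun a b hab x hx => by
    obtain ⟨y, hyH, hy, hyd⟩ := key a b hab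
    have : x = y := hφ (Subtype.ext (by rw [hx, hyd]))
    rw [this]
    exact hc ⟨y, hyH⟩ hy) hex
  have hform : ∀ z : G, (∀ k l : Fin n, k ≠ l → (φ z : Matrix (Fin n) (Fin n) F) k l = 0) →
      (φ z : Matrix (Fin n) (Fin n) F) = diagonal (fun k => (φ z : Matrix (Fin n) (Fin n) F) k k) := by
    intro z hz
    ext k l
    by_cases h : k = l
    · rw [h, Matrix.diagonal_apply_eq]
    · rw [Matrix.diagonal_apply_ne _ h, hz k l h]
  apply hφ
  refine Subtype.ext ?_
  rw [hmul g c _ _ (hform g hgd) (hform c hcd), hmul c g _ _ (hform c hcd) (hform g hgd)]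
  congr 1
  funext k
  exact mul_comm _ _

end

theorem exists_i {F : Type} [Field F] [Fintype F] (h4 : Fintype.card F % 4 = 1) : ∃ i : F, i ^ 2 = -1 := by
  obtain ⟨i, hi⟩ := FiniteField.isSquare_neg_one_iff.2 (show Fintype.card F % 4 ≠ 3 by omega)
  exact ⟨i, by rw [pow_two, ← hi]⟩

theorem two_ne {F : Type} [Field F] [Fintype F] (h4 : Fintype.card F % 4 = 1) : (2 : F) ≠ 0 := by
  intro h
  have h1 : ringChar F = 2 := by
    have h2 : ringChar F ∣ 2 := ringChar.dvd (by exact_mod_cast h)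
    have h3 : (ringChar F).Prime := CharP.char_is_prime F _
    exact (Nat.prime_dvd_prime_iff_eq h3 Nat.prime_two).1 h2
  have h2 := FiniteField.even_card_of_char_two h1
  omega

/-- **N2**, linear groups -/
theorem coreRow_sl_one {F : Type} [Field F] [Fintype F] {p : ℕ} [Fact p.Prime] [CharP F p]
    (h4 : Fintype.card F % 4 = 1) {n : ℕ} (hn : 3 ≤ n) (hn4 : n ≠ 4) :
    CoreRow p (Matrix.SpecialLinearGroup (Fin n) F) := by
  obtain ⟨i, hi⟩ := exists_i h4
  refine coreRow_diag (MonoidHom.id _) Function.injective_id (two_ne h4) hi hn hn4 fun d _ hd => ?_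
  exact ⟨⟨diagonal d, by rw [Matrix.det_diagonal, hd]⟩, rfl⟩

/-- **N2**, unitary groups -/
theorem coreRow_su_three {F : Type} [Field F] [Fintype F] {p : ℕ} [Fact p.Prime] [CharP F p] {n q : ℕ}
    (hq : Fintype.card F = q ^ 2) (h4 : q % 4 = 3) (hn : 3 ≤ n) (hn4 : n ≠ 4) : CoreRow p (Cfsg.SU n F q) := by
  have hc : Fintype.card F % 4 = 1 := by
    rw [hq, Nat.pow_mod, h4]
  obtain ⟨i, hi⟩ := exists_i hc
  refine coreRow_diag (Cfsg.SU n F q).subtype (Subgroup.subtype_injective _) (two_ne hc) hi hn hn4 fun d hd4 hd => ?_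
  refine ⟨⟨⟨diagonal d, by rw [Matrix.det_diagonal, hd]⟩, ?_⟩, rfl⟩
  intro u v
  show hermForm n F q ((diagonal d : Matrix (Fin n) (Fin n) F).mulVec u)
    ((diagonal d : Matrix (Fin n) (Fin n) F).mulVec v) = hermForm n F q u v
  unfold hermForm
  refine Finset.sum_congr rfl fun k _ => ?_
  rw [Matrix.mulVec_diagonal, Matrix.mulVec_diagonal]
  have h1 : d k * d k ^ q = 1 := by
    rw [← pow_succ']
    obtain ⟨m, hm⟩ : 4 ∣ q + 1 := by omega
    rw [hm, pow_mul, hd4, one_pow]
  rw [mul_pow]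
  linear_combination (u k * v k ^ q) * h1

end Cfsg.Agent.H421.Hall
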